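import Cfsg.Agent.H312.HT.Def

/-!
# S3540, TEAM HT: the enveloping algebra of `SL(2,5)` without fixed vectors of elements of order three (helper432)
-/

set_option autoImplicit false

namespace Cfsg.Agent.H432.HT

open Cfsg.Agent.H828.HT Cfsg.Agent.PermutationGroups.AutSL25 Cfsg.Agent.H312.HT Matrix

section alg

variable {K : Type*} [Field K] {C : Type*} [Ring C] [Algebra K C]

/-- the linear combination of `1, a, b, ab` with given coordinates -/
def ev (K : Type*) [Field K] {C : Type*} [Ring C] [Algebra K C] (a b : C) : (Fin 4 → K) →ₗ[K] C where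
  toFun t := t 0 • (1 : C) + t 1 • a + t 2 • b + t 3 • (a * b)
  map_add' t u := by simp only [Pi.add_apply]; module
  map_smul' k t := by simp only [Pi.smul_apply, smul_eq_mul, RingHom.id_apply]; module

theorem ev_apply (a b : C) (t : Fin 4 → K) :
    ev K a b t = t 0 • (1 : C) + t 1 • a + t 2 • b + t 3 • (a * b) := rfl

/-- the multiplication table -/
def mm (γ : K) (t u : Fin 4 → K) : Fin 4 → K :=
  ![t 0 * u 0 - t 1 * u 1 + γ * (t 2 * u 1) - t 2 * u 2 + t 3 * u 1 - t 3 * u 3,
    t 0 * u 1 + t 1 * u 0 - t 2 * u 1 + t 2 * u 3 + γ * (t 3 * u 1) - t 3 * u 2,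
    t 0 * u 2 - t 1 * u 3 + t 2 * u 0 - t 2 * u 2 + γ * (t 2 * u 3) + t 3 * u 1,
    t 0 * u 3 + t 1 * u 2 - t 2 * u 1 + t 3 * u 0 - t 3 * u 2 + γ * (t 3 * u 3)]

theorem ev_mul {γ : K} {a b : C} (haa : a * a = -1) (hbb : b * b = -1 - b)
    (hba : b * a = γ • (1 : C) - a - a * b) (t u : Fin 4 → K) :
    ev K a b t * ev K a b u = ev K a b (mm γ t u) := by
  have h1 : a * (a * b) = -b := by rw [← mul_assoc, haa]; simp
  have h2 : b * (a * b) = γ • b + a := by
    rw [← mul_assoc, hba]
    simp only [sub_mul, smul_mul_assoc, one_mul, mul_assoc, hbb, mul_sub, mul_neg, mul_one]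
    abel
  have h3 : (a * b) * a = γ • a + 1 + b := by
    rw [mul_assoc, hba]
    simp only [mul_sub, mul_smul_comm, mul_one, haa, h1]
    abel
  have h4 : (a * b) * b = -a - a * b := by
    rw [mul_assoc, hbb, mul_sub, mul_neg, mul_one]
  have h5 : (a * b) * (a * b) = γ • (a * b) - 1 := by
    rw [mul_assoc, h2, mul_add, mul_smul_comm, haa]; abel
  simp only [ev_apply, mm, Matrix.cons_val_zero, Matrix.cons_val_one, Matrix.cons_val,
    add_mul, mul_add, smul_mul_assoc, mul_smul_comm, one_mul, mul_one, haa, hbb, hba, h1, h2, h3, h4, h5,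
    smul_sub, smul_add, smul_neg, smul_smul]
  module

variable (γ r s : K)

/-- the first generator -/
def a0 : Matrix (Fin 2) (Fin 2) K := !![0, -1; 1, 0]

/-- the second generator -/
def b0 : Matrix (Fin 2) (Fin 2) K := !![r, s; s - γ, -1 - r]

theorem a0_sq : (a0 : Matrix (Fin 2) (Fin 2) K) * a0 = -1 := by
  ext i j
  fin_cases i <;> fin_cases j <;> simp [a0, Matrix.mul_apply, Fin.sum_univ_two]

variable {γ r s}

theorem b0_sq (h : r ^ 2 + r + 1 + s ^ 2 - s * γ = 0) : b0 γ r s * b0 γ r s = -1 - b0 γ r s := by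
  ext i j
  fin_cases i <;> fin_cases j <;>
    simp [b0, Matrix.mul_apply, Fin.sum_univ_two] <;> first | linear_combination h | ring

theorem b0_a0 : b0 γ r s * a0 = γ • (1 : Matrix (Fin 2) (Fin 2) K) - a0 - a0 * b0 γ r s := by
  ext i j
  fin_cases i <;> fin_cases j <;>
    simp [b0, a0, Matrix.mul_apply, Fin.sum_univ_two]

theorem ev_inj (h : r ^ 2 + r + 1 + s ^ 2 - s * γ = 0) (hγ : γ ^ 2 - 3 ≠ 0) :
    Function.Injective (ev K (a0 : Matrix (Fin 2) (Fin 2) K) (b0 γ r s)) := by
  rw [← LinearMap.ker_eq_bot, LinearMap.ker_eq_bot']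
  intro t ht
  have e00 := congrFun (congrFun ht 0) 0
  have e01 := congrFun (congrFun ht 0) 1
  have e10 := congrFun (congrFun ht 1) 0
  have e11 := congrFun (congrFun ht 1) 1
  simp [ev_apply, a0, b0] at e00 e01 e10 e11
  have h3 : t 2 * (γ ^ 2 - 3) = 0 := by
    linear_combination (1 + 2 * r) * (e00 - e11) + (2 * s - γ) * (e01 + e10) - 4 * t 2 * h
  have h4 : t 3 * (γ ^ 2 - 3) = 0 := by
    linear_combination (-(2 * s - γ)) * (e00 - e11) + (1 + 2 * r) * (e01 + e10) - 4 * t 3 * h
  have t3 : t 2 = 0 := (mul_eq_zero.1 h3).resolve_right hγ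
  have t4 : t 3 = 0 := (mul_eq_zero.1 h4).resolve_right hγ
  rw [t3, t4] at e00 e10
  funext i
  fin_cases i
  · simpa using e00
  · simpa using e10
  · exact t3
  · exact t4

theorem ev_bij (h : r ^ 2 + r + 1 + s ^ 2 - s * γ = 0) (hγ : γ ^ 2 - 3 ≠ 0) :
    Function.Bijective (ev K (a0 : Matrix (Fin 2) (Fin 2) K) (b0 γ r s)) := by
  have hi := ev_inj h hγ
  refine ⟨hi, ?_⟩
  exact (LinearMap.injective_iff_surjective_of_finrank_eq_finrank (by
    rw [Module.finrank_fintype_fun_eq_card, Module.finrank_matrix, Module.finrank_self]; simp)).1 hi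

/-- the coordinates of a matrix -/
noncomputable def co (h : r ^ 2 + r + 1 + s ^ 2 - s * γ = 0) (hγ : γ ^ 2 - 3 ≠ 0) :
    (Fin 4 → K) ≃ₗ[K] Matrix (Fin 2) (Fin 2) K :=
  LinearEquiv.ofBijective _ (ev_bij h hγ)

theorem co_apply (h : r ^ 2 + r + 1 + s ^ 2 - s * γ = 0) (hγ : γ ^ 2 - 3 ≠ 0) (t : Fin 4 → K) :
    co h hγ t = ev K a0 (b0 γ r s) t := rfl

/-- the homomorphism from the matrix algebra -/
theorem exists_hom (h : r ^ 2 + r + 1 + s ^ 2 - s * γ = 0) (hγ : γ ^ 2 - 3 ≠ 0) {a b : C}
    (haa : a * a = -1) (hbb : b * b = -1 - b) (hba : b * a = γ • (1 : C) - a - a * b) :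
    ∃ Φ : Matrix (Fin 2) (Fin 2) K →ₐ[K] C, Φ a0 = a ∧ Φ (b0 γ r s) = b := by
  have key : ∀ t : Fin 4 → K, ((ev K a b).comp (co h hγ).symm.toLinearMap)
      (ev K a0 (b0 γ r s) t) = ev K a b t := by
    intro t
    simp only [LinearMap.comp_apply]
    congr 1
    change (co h hγ).symm (ev K a0 (b0 γ r s) t) = t
    rw [← co_apply h hγ, LinearEquiv.symm_apply_apply]
  refine ⟨AlgHom.ofLinearMap ((ev K a b).comp (co h hγ).symm.toLinearMap) ?_ ?_, ?_, ?_⟩
  · have h1 : (1 : Matrix (Fin 2) (Fin 2) K) = ev K a0 (b0 γ r s) ![1, 0, 0, 0] := by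
      simp [ev_apply]
    rw [h1, key]
    simp [ev_apply]
  · intro x y
    obtain ⟨t, rfl⟩ := (ev_bij h hγ).2 x
    obtain ⟨u, rfl⟩ := (ev_bij h hγ).2 y
    rw [ev_mul (γ := γ) a0_sq (b0_sq h) b0_a0, key, key, key, ev_mul haa hbb hba]
  · rw [AlgHom.ofLinearMap_apply]
    have h1 : (a0 : Matrix (Fin 2) (Fin 2) K) = ev K a0 (b0 γ r s) ![0, 1, 0, 0] := by
      simp [ev_apply]
    rw [h1, key]
    simp [ev_apply]
  · rw [AlgHom.ofLinearMap_apply]
    have h1 : b0 γ r s = ev K a0 (b0 γ r s) ![0, 0, 1, 0] := by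
      simp [ev_apply]
    conv_lhs => rw [h1]
    rw [key]
    simp [ev_apply]

/-- version without an algebra structure on the target -/
theorem exists_hom' {E : Type*} [Ring E] (ψ : K →+* E) (h : r ^ 2 + r + 1 + s ^ 2 - s * γ = 0)
    (hγ : γ ^ 2 - 3 ≠ 0) {a b : E} (haa : a * a = -1) (hbb : b * b = -1 - b)
    (hba : b * a = ψ γ - a - a * b) (ha : ∀ k, ψ k * a = a * ψ k) (hb : ∀ k, ψ k * b = b * ψ k) :
    ∃ Φ : Matrix (Fin 2) (Fin 2) K →+* E, Φ a0 = a ∧ Φ (b0 γ r s) = b ∧
      ∀ k : K, Φ (k • 1) = ψ k := by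
  let S : Subring E := Subring.centralizer (Set.range ψ)
  have hψ : ∀ k, ψ k ∈ S := by
    intro k
    rw [Subring.mem_centralizer_iff]
    rintro _ ⟨l, rfl⟩
    rw [← map_mul, ← map_mul, mul_comm]
  let ψ' : K →+* S := ψ.codRestrict S hψ
  have hc : ∀ (k : K) (x : S), ψ' k * x = x * ψ' k := by
    intro k x
    apply Subtype.ext
    exact (Subring.mem_centralizer_iff.1 x.2) (ψ k) ⟨k, rfl⟩
  let _ : Algebra K S := ψ'.toAlgebra' hc
  have haS : a ∈ S := by
    rw [Subring.mem_centralizer_iff]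
    rintro _ ⟨l, rfl⟩
    exact ha l
  have hbS : b ∈ S := by
    rw [Subring.mem_centralizer_iff]
    rintro _ ⟨l, rfl⟩
    exact hb l
  have hsm : ∀ k : K, (k • (1 : S) : S) = ψ' k := by
    intro k
    rw [Algebra.smul_def, mul_one]
    rfl
  obtain ⟨Φ, h1, h2⟩ := exists_hom (C := S) (a := ⟨a, haS⟩) (b := ⟨b, hbS⟩) h hγ
    (Subtype.ext haa) (Subtype.ext (by simpa using hbb))
    (by
      rw [hsm]
      exact Subtype.ext hba)
  refine ⟨S.subtype.comp Φ.toRingHom, ?_, ?_, ?_⟩
  · change ((Φ a0 : S) : E) = a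
    rw [h1]
  · change ((Φ (b0 γ r s) : S) : E) = b
    rw [h2]
  · intro k
    change ((Φ (k • 1) : S) : E) = ψ k
    rw [map_smul, map_one, hsm]
    rfl

theorem quint {R : Type*} [Ring R] {c y : R} (hy2 : y * y = c * y - 1)
    (hy5 : y * y * y * y * y = 1) : (c * c + c - 1) * ((c * c - c - 1) * y - (c - 1)) = 0 := by
  have y3 : y * y * y = (c * c - 1) * y - c := by
    rw [hy2, sub_mul, mul_assoc, hy2]; noncomm_ring
  have y4 : y * y * y * y = (c * c * c - 2 * c) * y - (c * c - 1) := by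
    rw [y3, sub_mul, mul_assoc, hy2]; noncomm_ring
  have y5 : y * y * y * y * y = (c * c * c * c - 3 * (c * c) + 1) * y - (c * c * c - 2 * c) := by
    rw [y4, sub_mul, mul_assoc, hy2]; noncomm_ring
  have h : (c * c + c - 1) * ((c * c - c - 1) * y - (c - 1)) =
      ((c * c * c * c - 3 * (c * c) + 1) * y - (c * c * c - 2 * c)) - 1 := by noncomm_ring
  rw [h, ← y5, hy5, sub_self]

end alg

section field

variable {p : ℕ} [Fact p.Prime] {E : Type*} [Ring E] [Algebra (ZMod p) E]

open Polynomial in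
/-- the field generated by the central element -/
theorem field_data (c : E) (hc : c * c + c - 1 = 0)
    (hcase : ∀ l : ZMod p, c ≠ algebraMap (ZMod p) E l → ∀ x : E, (c - algebraMap (ZMod p) E l) * x = 0 → x = 0) :
    ∃ (K : Type) (_ : Field K) (ψ : K →+* E) (γ : K), γ * γ + γ = 1 ∧ ψ γ = c ∧
      (∀ x, c * x = x * c → ∀ k, ψ k * x = x * ψ k) ∧ CharP K p ∧ Finite K ∧
      (Nat.card K = p ∨ (Nat.card K = p ^ 2 ∧ ∀ n : ℕ, (n : K) * n + n ≠ 1)) ∧
      ∀ S : Subring K, γ ∈ S → S = ⊤ := by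
  by_cases h : ∃ l : ZMod p, l * l + l = 1
  · obtain ⟨l, hl⟩ := h
    have hprod : (c - algebraMap (ZMod p) E l) * (c - algebraMap (ZMod p) E (-1 - l)) = 0 := by
      have h1 : algebraMap (ZMod p) E (l * l + l) = 1 := by rw [hl, map_one]
      rw [map_add, map_mul] at h1
      have h2 : c * algebraMap (ZMod p) E l = algebraMap (ZMod p) E l * c :=
        (Algebra.commutes l c).symm
      have h3 : (c - algebraMap (ZMod p) E l) * (c - algebraMap (ZMod p) E (-1 - l)) =
          (c * c + c - 1) - (algebraMap (ZMod p) E l * algebraMap (ZMod p) E l + algebraMap (ZMod p) E l - 1)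
            + (c * algebraMap (ZMod p) E l - algebraMap (ZMod p) E l * c) := by
        rw [map_sub, map_neg, map_one]; noncomm_ring
      rw [h3, hc, h1, h2]; simp
    have hex : ∃ γ : ZMod p, γ * γ + γ = 1 ∧ algebraMap (ZMod p) E γ = c := by
      by_cases h4 : c = algebraMap (ZMod p) E l
      · exact ⟨l, hl, h4.symm⟩
      · have h5 := hcase l h4 _ hprod
        refine ⟨-1 - l, ?_, (sub_eq_zero.1 h5).symm⟩
        linear_combination hl
    obtain ⟨γ, hγ, hγc⟩ := hex
    refine ⟨ZMod p, inferInstance, algebraMap (ZMod p) E, γ, hγ, hγc, ?_, inferInstance, inferInstance,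
      Or.inl (by simp), ?_⟩
    · intro x _ k
      exact Algebra.commutes k x
    · intro S _
      rw [eq_top_iff]
      intro k _
      rw [← ZMod.natCast_zmod_val k]
      exact natCast_mem S _
  · have hp0 : (X ^ 2 + X - 1 : (ZMod p)[X]) = X ^ 2 + (X - 1) := by ring
    have hdeg : (X - 1 : (ZMod p)[X]).degree < 2 := by
      have : (X - 1 : (ZMod p)[X]) = X - C 1 := by simp
      rw [this, degree_X_sub_C]; decide
    have hmon : (X ^ 2 + X - 1 : (ZMod p)[X]).Monic := by
      rw [hp0]; exact monic_X_pow_add hdeg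
    have hnat : (X ^ 2 + X - 1 : (ZMod p)[X]).natDegree = 2 := by
      compute_degree!
    have hirr : Irreducible (X ^ 2 + X - 1 : (ZMod p)[X]) := by
      rw [hmon.irreducible_iff_roots_eq_zero_of_degree_le_three (by rw [hnat]) (by rw [hnat]; decide)]
      rw [Multiset.eq_zero_iff_forall_notMem]
      intro l hl
      rw [mem_roots hmon.ne_zero, IsRoot.def] at hl
      simp only [eval_add, eval_sub, eval_pow, eval_X, eval_one] at hl
      exact h ⟨l, by linear_combination hl⟩
    have hF : Fact (Irreducible (X ^ 2 + X - 1 : (ZMod p)[X])) := ⟨hirr⟩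
    have haev : aeval c (X ^ 2 + X - 1 : (ZMod p)[X]) = 0 := by
      simp only [map_add, map_sub, map_pow, aeval_X, map_one]
      rw [pow_two]; exact hc
    let ψ : AdjoinRoot (X ^ 2 + X - 1 : (ZMod p)[X]) →+* E :=
      Ideal.Quotient.lift (Ideal.span {(X ^ 2 + X - 1 : (ZMod p)[X])}) (aeval c : (ZMod p)[X] →ₐ[ZMod p] E).toRingHom
        (by
          intro g hg
          obtain ⟨q, rfl⟩ := Ideal.mem_span_singleton'.1 hg
          change aeval c (q * _) = 0
          rw [map_mul, haev, mul_zero])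
    have hψ : ∀ g : (ZMod p)[X], ψ (AdjoinRoot.mk _ g) = aeval c g := by
      intro g
      exact Ideal.Quotient.lift_mk _ _ _
    have hroot : AdjoinRoot.root (X ^ 2 + X - 1 : (ZMod p)[X]) * AdjoinRoot.root _ + AdjoinRoot.root _ = 1 := by
      have h1 := AdjoinRoot.eval₂_root (X ^ 2 + X - 1 : (ZMod p)[X])
      simp only [eval₂_add, eval₂_sub, eval₂_pow, eval₂_X, eval₂_one] at h1
      linear_combination h1
    refine ⟨AdjoinRoot (X ^ 2 + X - 1 : (ZMod p)[X]), inferInstance, ψ, AdjoinRoot.root _, hroot, ?_, ?_,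
      charP_of_injective_algebraMap (algebraMap (ZMod p) _).injective p, ?_, Or.inr ⟨?_, ?_⟩, ?_⟩
    · rw [← AdjoinRoot.mk_X, hψ, aeval_X]
    · intro x hx k
      obtain ⟨g, rfl⟩ := AdjoinRoot.mk_surjective k
      rw [hψ]
      have h1 : aeval c g ∈ Subalgebra.centralizer (ZMod p) {x} := by
        have h2 : Algebra.adjoin (ZMod p) {c} ≤ Subalgebra.centralizer (ZMod p) {x} := by
          rw [Algebra.adjoin_le_iff, Set.singleton_subset_iff]
          change c ∈ Subalgebra.centralizer (ZMod p) {x}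
          rw [Subalgebra.mem_centralizer_iff]
          rintro _ rfl
          exact hx.symm
        exact h2 (aeval_mem_adjoin_singleton _ _)
      rw [Subalgebra.mem_centralizer_iff] at h1
      exact (h1 x rfl).symm
    · have := (AdjoinRoot.powerBasis' hmon).finite
      exact Module.finite_of_finite (ZMod p)
    · have h1 := (AdjoinRoot.powerBasis' hmon).finrank
      rw [AdjoinRoot.powerBasis'_dim, hnat] at h1
      have := (AdjoinRoot.powerBasis' hmon).finite
      rw [Module.natCard_eq_pow_finrank (K := ZMod p), h1, Nat.card_zmod]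
    · intro n hn
      apply h
      refine ⟨(n : ZMod p), ?_⟩
      apply (algebraMap (ZMod p) (AdjoinRoot (X ^ 2 + X - 1 : (ZMod p)[X]))).injective
      rw [map_add, map_mul, map_natCast, map_one, hn]
    · intro S hS
      rw [eq_top_iff]
      intro k _
      obtain ⟨g, rfl⟩ := AdjoinRoot.mk_surjective k
      induction g using Polynomial.induction_on' with
      | add f g hf hg => rw [map_add]; exact S.add_mem (hf trivial) (hg trivial)
      | monomial n a =>
        rw [← C_mul_X_pow_eq_monomial, map_mul, map_pow, AdjoinRoot.mk_X, AdjoinRoot.mk_C]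
        refine S.mul_mem ?_ (S.pow_mem hS n)
        rw [← ZMod.natCast_zmod_val a, map_natCast]
        exact natCast_mem S _

end field

section main

universe u

variable {p : ℕ} [Fact p.Prime] {V : Type u} [AddCommGroup V] [Module (ZMod p) V]

/-- the representation as a homomorphism to the endomorphism ring -/
def rep (e : SL25 →* (V ≃ₗ[ZMod p] V)) : SL25 →* Module.End (ZMod p) V :=
  (LinearEquiv.automorphismGroup.toLinearMapMonoidHom).comp e

theorem rep_apply (e : SL25 →* (V ≃ₗ[ZMod p] V)) (x : SL25) (v : V) : rep e x v = e x v := rfl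

theorem rep_inj {e : SL25 →* (V ≃ₗ[ZMod p] V)} (he : Function.Injective e) :
    Function.Injective (rep e) := by
  intro x y h
  apply he
  ext v
  exact LinearMap.congr_fun h v

/-- an element of the enveloping algebra that commutes with the group is zero or injective -/
theorem fs {e : SL25 →* (V ≃ₗ[ZMod p] V)} (hom : FaithSub e.range) {f : Module.End (ZMod p) V}
    (hf : f ∈ Algebra.adjoin (ZMod p) (Set.range (rep e))) (hc : ∀ x, rep e x * f = f * rep e x)
    {w : V} (hw : w ≠ 0) (hfw : f w = 0) : f = 0 := by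
  refine hom (LinearMap.ker f) ?_ ?_ f ?_ (fun w hw => hw)
  · intro h
    have h1 : w ∈ LinearMap.ker f := hfw
    rw [h, Submodule.mem_bot] at h1
    exact hw h1
  · rintro _ ⟨x, rfl⟩ w hw
    have h1 := LinearMap.congr_fun (hc x) w
    simp only [Module.End.mul_apply, rep_apply] at h1
    change f (e x w) = 0
    rw [← h1]
    have h2 : f w = 0 := hw
    rw [h2, map_zero]
  · convert hf using 2
    ext g
    constructor
    · rintro ⟨_, ⟨x, rfl⟩, rfl⟩
      exact ⟨x, rfl⟩
    · rintro ⟨x, rfl⟩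
      exact ⟨e x, ⟨x, rfl⟩, rfl⟩

theorem seven_le {G : Subgroup (V ≃ₗ[ZMod p] V)} (hG : ¬ p ∣ Nat.card G)
    {e : SL25 →* (V ≃ₗ[ZMod p] V)} (he : Function.Injective e) (hL : ∀ x, e x ∈ G) : 7 ≤ p := by
  have h1 : Nat.card SL25 ∣ Nat.card G := by
    have h2 : Function.Injective (e.codRestrict G hL) := by
      intro x y h
      exact he (congrArg Subtype.val h)
    exact Subgroup.card_dvd_of_injective _ h2
  rw [natCard] at h1
  have hp : p.Prime := Fact.out
  by_contra h
  have h3 : ¬ p ∣ 120 := fun h4 => hG (h4.trans h1)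
  have h5 : p < 7 := by omega
  interval_cases p <;> first | exact h3 (by decide) | exact absurd hp (by decide)

theorem cube_eq : (-(S * T) : SL25) * (-(S * T)) * (-(S * T)) = 1 := by decide +kernel
theorem cube_ne : (-(S * T) : SL25) ≠ 1 := by decide +kernel
theorem S_mul : (S * -(S * T) : SL25) = T := by decide +kernel
theorem Tinv : (T⁻¹ * T⁻¹ * T⁻¹ * T⁻¹ * T⁻¹ : SL25) = 1 := by decide +kernel

/-- the relations in the enveloping algebra -/
theorem rels {G : Subgroup (V ≃ₗ[ZMod p] V)} (hG : ¬ p ∣ Nat.card G)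
    {e : SL25 →* (V ≃ₗ[ZMod p] V)} (he : Function.Injective e) (hL : ∀ x, e x ∈ G)
    (hom : FaithSub e.range) (h3 : ∀ x, x * x * x = 1 → x ≠ 1 → ∀ v, e x v = v → v = 0) :
    ∃ a b c : Module.End (ZMod p) V, rep e S = a ∧ rep e (-(S * T)) = b ∧ a * b = rep e T ∧
      a * a = -1 ∧ b * b = -1 - b ∧ b * a = c - a - a * b ∧ (∀ x, rep e x * c = c * rep e x) ∧
      c * c + c - 1 = 0 ∧ c ∈ Algebra.adjoin (ZMod p) (Set.range (rep e)) := by
  have hp7 := seven_le hG he hL
  have hinj := rep_inj he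
  have hmem : ∀ x, rep e x ∈ Algebra.adjoin (ZMod p) (Set.range (rep e)) := fun x =>
    Algebra.subset_adjoin ⟨x, rfl⟩
  -- `-1` acts as `-1`
  have hneg : rep e (-1) = -1 := by
    have hcm : ∀ x, rep e x * (rep e (-1) - 1) = (rep e (-1) - 1) * rep e x := by
      intro x
      rw [mul_sub, sub_mul, ← map_mul, ← map_mul, mul_neg, neg_mul, mul_one, one_mul, mul_one, one_mul]
    have hne : ∀ w : V, w ≠ 0 → (rep e (-1) - 1) w ≠ 0 := by
      intro w hw h0
      have h1 := fs hom (Subalgebra.sub_mem _ (hmem _) (Subalgebra.one_mem _)) hcm hw h0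
      rw [sub_eq_zero] at h1
      exact neg_one_ne (hinj (h1.trans (map_one _).symm))
    have h2 : rep e (-1) * rep e (-1) = 1 := by rw [← map_mul]; simp
    rw [← sub_eq_zero, sub_neg_eq_add]
    ext v
    by_contra h
    apply hne _ h
    have h3 := LinearMap.congr_fun (show (rep e (-1) - 1) * (rep e (-1) + 1) = 0 by
      have : (rep e (-1) - 1) * (rep e (-1) + 1) = rep e (-1) * rep e (-1) - 1 := by noncomm_ring
      rw [this, h2, sub_self]) v
    exact h3
  obtain ⟨a, ha⟩ : ∃ a, rep e S = a := ⟨_, rfl⟩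
  obtain ⟨b, hb⟩ : ∃ b, rep e (-(S * T)) = b := ⟨_, rfl⟩
  have hab : a * b = rep e T := by rw [← ha, ← hb, ← map_mul, S_mul]
  have haa : a * a = -1 := by rw [← ha, ← map_mul, relS, hneg]
  have hb3 : b * b * b = 1 := by rw [← hb, ← map_mul, ← map_mul, cube_eq, map_one]
  have hbb0 : b * b + b + 1 = 0 := by
    ext v
    have h4 : b * (b * b + b + 1) = b * b + b + 1 := by
      have : b * (b * b + b + 1) = b * b * b + b * b + b := by noncomm_ring
      rw [this, hb3]; abel
    have h5 := LinearMap.congr_fun h4 v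
    refine h3 (-(S * T)) cube_eq cube_ne _ ?_
    rw [← rep_apply, hb]
    exact h5
  have hbb : b * b = -1 - b := by
    have : b * b = (b * b + b + 1) + (-1 - b) := by abel
    rw [this, hbb0, zero_add]
  obtain ⟨c, hc⟩ : ∃ c, a * b + b * a + a = c := ⟨_, rfl⟩
  have hac : a * c = c * a := by
    rw [← hc]
    have h1 : a * (a * b + b * a + a) = (a * a) * b + a * b * a + a * a := by noncomm_ring
    have h2 : (a * b + b * a + a) * a = a * b * a + b * (a * a) + a * a := by noncomm_ring
    rw [h1, h2, haa]; noncomm_ring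
  have hbc : b * c = c * b := by
    rw [← hc]
    have h1 : b * (a * b + b * a + a) = b * a * b + (b * b) * a + b * a := by noncomm_ring
    have h2 : (a * b + b * a + a) * b = a * (b * b) + b * a * b + a * b := by noncomm_ring
    rw [h1, h2, hbb]; noncomm_ring
  have hcen : ∀ x, rep e x * c = c * rep e x := by
    intro x
    have hx : x ∈ Subgroup.closure ({S, T} : Set SL25) := by rw [closure_eq_top]; trivial
    induction hx using Subgroup.closure_induction with
    | mem x hx =>
      rcases hx with rfl | hx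
      · rw [ha]; exact hac
      · rw [Set.mem_singleton_iff] at hx
        subst hx
        rw [← hab, mul_assoc, hbc, ← mul_assoc, hac, mul_assoc]
    | one => simp
    | mul x y _ _ hx hy => rw [map_mul, mul_assoc, hy, ← mul_assoc, hx, mul_assoc]
    | inv x _ hx =>
      have h1 : rep e x⁻¹ * rep e x = 1 := by rw [← map_mul]; simp
      have h2 : rep e x * rep e x⁻¹ = 1 := by rw [← map_mul]; simp
      calc rep e x⁻¹ * c = rep e x⁻¹ * c * (rep e x * rep e x⁻¹) := by rw [h2, mul_one]
        _ = rep e x⁻¹ * (c * rep e x) * rep e x⁻¹ := by noncomm_ring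
        _ = rep e x⁻¹ * rep e x * c * rep e x⁻¹ := by rw [← hx]; noncomm_ring
        _ = c * rep e x⁻¹ := by rw [h1, one_mul]
  have hcmem : c ∈ Algebra.adjoin (ZMod p) (Set.range (rep e)) := by
    rw [← hc, ← ha, ← hb]
    exact add_mem (add_mem (mul_mem (hmem _) (hmem _)) (mul_mem (hmem _) (hmem _))) (hmem _)
  refine ⟨a, b, c, ha, hb, hab, haa, hbb, by rw [← hc]; abel, hcen, ?_, hcmem⟩
  -- the quadratic equation
  have hy1 : (a * b) * (b * a + a) = 1 := by
    have h1 : (a * b) * (b * a + a) = a * (b * b) * a + a * b * a := by noncomm_ring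
    have h2 : a * (-1 - b) * a + a * b * a = -(a * a) := by noncomm_ring
    rw [h1, hbb, h2, haa, neg_neg]
  have hy2 : (b * a + a) * (a * b) = 1 := by
    have h1 : (b * a + a) * (a * b) = b * (a * a) * b + (a * a) * b := by noncomm_ring
    have h2 : b * -1 * b + -1 * b = -(b * b) - b := by noncomm_ring
    rw [h1, haa, h2, hbb]; abel
  have hsum : c = a * b + (b * a + a) := by rw [← hc]; abel
  have hq1 : (a * b) * (a * b) = c * (a * b) - 1 := by
    have h1 : c * (a * b) = (a * b) * (a * b) + (b * a + a) * (a * b) := by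
      conv_lhs => rw [hsum, add_mul]
    rw [h1, hy2]; abel
  have hq2 : (b * a + a) * (b * a + a) = c * (b * a + a) - 1 := by
    have h1 : c * (b * a + a) = (a * b) * (b * a + a) + (b * a + a) * (b * a + a) := by
      conv_lhs => rw [hsum, add_mul]
    rw [h1, hy1]; abel
  have hT5 : (a * b) * (a * b) * (a * b) * (a * b) * (a * b) = 1 := by
    rw [hab, ← map_mul, ← map_mul, ← map_mul, ← map_mul, relT, map_one]
  have hTi : b * a + a = rep e T⁻¹ := by
    have h1 : rep e T⁻¹ * (a * b) = 1 := by rw [hab, ← map_mul]; simp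
    calc b * a + a = rep e T⁻¹ * (a * b) * (b * a + a) := by rw [h1, one_mul]
      _ = rep e T⁻¹ := by rw [mul_assoc, hy1, mul_one]
  have hT5' : (b * a + a) * (b * a + a) * (b * a + a) * (b * a + a) * (b * a + a) = 1 := by
    rw [hTi, ← map_mul, ← map_mul, ← map_mul, ← map_mul, Tinv, map_one]
  by_contra hf
  have hfm : c * c + c - 1 ∈ Algebra.adjoin (ZMod p) (Set.range (rep e)) :=
    sub_mem (add_mem (mul_mem hcmem hcmem) hcmem) (one_mem _)
  have hfc : ∀ x, rep e x * (c * c + c - 1) = (c * c + c - 1) * rep e x := by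
    intro x
    have h1 : rep e x * (c * c + c - 1) = (rep e x * c) * c + rep e x * c - rep e x := by noncomm_ring
    have h2 : c * rep e x * c + c * rep e x - rep e x = c * (rep e x * c) + c * rep e x - rep e x := by
      noncomm_ring
    rw [h1, hcen, h2, hcen]; noncomm_ring
  have hfi : ∀ g : Module.End (ZMod p) V, (c * c + c - 1) * g = 0 → g = 0 := by
    intro g hg
    ext v
    by_contra h
    exact hf (fs hom hfm hfc h (LinearMap.congr_fun hg v))
  have e1 := hfi _ (quint hq1 hT5)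
  have e2 := hfi _ (quint hq2 hT5')
  have e3 : (c * c + c - 1) * (c - 2) = 0 := by
    have h1 : (c * c + c - 1) * (c - 2) = (c * c - c - 1) * c - (c - 1) - (c - 1) := by noncomm_ring
    have h2 : (c * c - c - 1) * c - (c - 1) - (c - 1) =
        ((c * c - c - 1) * (a * b) - (c - 1)) + ((c * c - c - 1) * (b * a + a) - (c - 1)) := by
      conv_lhs => rw [show (c * c - c - 1) * c = (c * c - c - 1) * (a * b + (b * a + a)) by rw [← hsum]]
      noncomm_ring
    rw [h1, h2, e1, e2, add_zero]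
  have e4 : c = 2 := sub_eq_zero.1 (hfi _ e3)
  rw [e4] at hq1
  obtain ⟨y, hy⟩ : ∃ y, a * b = y := ⟨_, rfl⟩
  rw [hy] at hq1 hT5
  have e5 : (y - 1) * (y - 1) = 0 := by
    have : (y - 1) * (y - 1) = y * y - (2 * y - 1) := by noncomm_ring
    rw [this, hq1, sub_self]
  have e6 : y * y * y * y * y - 1 - 5 * (y - 1) =
      (y - 1) * (y - 1) * (y * y * y + 2 * (y * y) + 3 * y + 4) := by noncomm_ring
  rw [e5, zero_mul, hT5, sub_self, zero_sub, neg_eq_zero] at e6
  have h5 : (5 : ZMod p) ≠ 0 := by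
    intro h
    have h6 : ((5 : ℕ) : ZMod p) = 0 := by exact_mod_cast h
    rw [ZMod.natCast_eq_zero_iff] at h6
    exact absurd (Nat.le_of_dvd (by norm_num) h6) (by omega)
  have e7 : y = 1 := by
    rw [← sub_eq_zero]
    have h8 : (5 : ZMod p) • (y - 1) = 0 := by
      rw [← e6, Algebra.smul_def, map_ofNat]
    exact (smul_eq_zero.1 h8).resolve_left h5
  have h9 : rep e T = rep e 1 := by rw [← hab, hy, e7, map_one]
  exact T_ne (hinj h9)

open Polynomial in
theorem exists_rs {K : Type*} [Field K] [Finite K] (hodd : Nat.card K % 2 = 1) (γ : K) :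
    ∃ r s : K, r ^ 2 + r + 1 + s ^ 2 - s * γ = 0 := by
  have := Fintype.ofFinite K
  have h1 : (X ^ 2 + X + 1 : K[X]).degree = 2 := by compute_degree!
  have h2 : (X ^ 2 - C γ * X : K[X]).degree = 2 := by compute_degree!
  obtain ⟨r, s, h⟩ := FiniteField.exists_root_sum_quadratic h1 h2 (by
    rw [← Nat.card_eq_fintype_card]; exact hodd)
  refine ⟨r, s, ?_⟩
  simp only [eval_add, eval_sub, eval_mul, eval_pow, eval_X, eval_C, eval_one] at h
  linear_combination h

theorem det_a0 {K : Type*} [Field K] : (a0 : Matrix (Fin 2) (Fin 2) K).det = 1 := by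
  simp [a0, Matrix.det_fin_two]

theorem det_b0 {K : Type*} [Field K] {γ r s : K} (h : r ^ 2 + r + 1 + s ^ 2 - s * γ = 0) :
    (b0 γ r s).det = 1 := by
  simp only [b0, Matrix.det_fin_two_of]
  linear_combination -h

/-- (Q) the quaternion algebra -/
theorem exists_setup {G : Subgroup (V ≃ₗ[ZMod p] V)} (hV : ∃ v : V, v ≠ 0) (hG : ¬ p ∣ Nat.card G)
    (e : SL25 →* (V ≃ₗ[ZMod p] V))
    (he : Function.Injective e) (hL : ∀ x, e x ∈ G) (hn : ∀ g ∈ G, ∀ x, ∃ y, g * e x * g⁻¹ = e y)
    (hom : FaithSub e.range) (h3 : ∀ x, x * x * x = 1 → x ≠ 1 → ∀ v, e x v = v → v = 0) :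
    ∃ (K : Type) (_ : Field K) (_ : Module (Matrix (Fin 2) (Fin 2) K) V)
      (j : SL25 →* Matrix.SpecialLinearGroup (Fin 2) K), SetupQ G K j e := by
  have hp7 := seven_le hG he hL
  have hp : p.Prime := Fact.out
  obtain ⟨a, b, c, ha, hb, hab, haa, hbb, hba, hcen, hcc, hcmem⟩ := rels hG he hL hom h3
  have hVn : Nontrivial V := by
    obtain ⟨v, hv⟩ := hV
    exact ⟨v, 0, hv⟩
  have hcase : ∀ l : ZMod p, c ≠ algebraMap (ZMod p) (Module.End (ZMod p) V) l →
      ∀ x : Module.End (ZMod p) V, (c - algebraMap (ZMod p) _ l) * x = 0 → x = 0 := by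
    intro l hl x hx
    ext v
    by_contra h
    apply hl
    rw [← sub_eq_zero]
    refine fs hom (sub_mem hcmem (Subalgebra.algebraMap_mem _ l)) ?_ h (LinearMap.congr_fun hx v)
    intro x
    rw [mul_sub, sub_mul, hcen, Algebra.commutes l (rep e x)]
  obtain ⟨K, fK, ψ, γ, hγ, hψc, hψ, hch, hfin, hcard, hgen⟩ := field_data (p := p) c hcc hcase
  have hodd : Nat.card K % 2 = 1 := by
    have hp2 : p % 2 = 1 := Nat.odd_iff.1 (hp.odd_of_ne_two (by omega))
    rcases hcard with h | ⟨h, _⟩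
    · rw [h, hp2]
    · rw [h, Nat.pow_mod, hp2]
  have hγ3 : γ ^ 2 - 3 ≠ 0 := by
    intro h
    have h1 : γ = -2 := by linear_combination hγ - h
    rw [h1] at hγ
    have h2 : (1 : K) = 0 := by linear_combination hγ
    exact one_ne_zero h2
  obtain ⟨r, s, hrs⟩ := exists_rs hodd γ
  have hcS := hcen S
  have hcB := hcen (-(S * T))
  rw [ha] at hcS
  rw [hb] at hcB
  obtain ⟨Φ, hΦa, hΦb, hΦk⟩ := exists_hom' ψ hrs hγ3 haa hbb (by rw [hψc]; exact hba)
    (hψ a hcS.symm) (hψ b hcB.symm)
  have hΦ : Function.Injective Φ := RingHom.injective Φ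
  obtain ⟨A0, hA0⟩ : ∃ g : Matrix.SpecialLinearGroup (Fin 2) K,
      (g : Matrix (Fin 2) (Fin 2) K) = a0 := ⟨⟨a0, det_a0⟩, rfl⟩
  obtain ⟨B0, hB0⟩ : ∃ g : Matrix.SpecialLinearGroup (Fin 2) K,
      (g : Matrix (Fin 2) (Fin 2) K) = b0 γ r s := ⟨⟨b0 γ r s, det_b0 hrs⟩, rfl⟩
  have hex : ∀ x : SL25, ∃ g : Matrix.SpecialLinearGroup (Fin 2) K,
      Φ (g : Matrix (Fin 2) (Fin 2) K) = rep e x := by
    intro x
    have hx : x ∈ Subgroup.closure ({S, T} : Set SL25) := by rw [closure_eq_top]; trivial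
    induction hx using Subgroup.closure_induction with
    | mem x hx =>
      rcases hx with rfl | hx
      · exact ⟨A0, by rw [ha, hA0, hΦa]⟩
      · rw [Set.mem_singleton_iff] at hx
        subst hx
        refine ⟨A0 * B0, ?_⟩
        rw [Matrix.SpecialLinearGroup.coe_mul, map_mul, ← hab, hA0, hB0, hΦa, hΦb]
    | one => exact ⟨1, by simp⟩
    | mul x y _ _ hx hy =>
      obtain ⟨g, hg⟩ := hx
      obtain ⟨k, hk⟩ := hy
      exact ⟨g * k, by rw [Matrix.SpecialLinearGroup.coe_mul, map_mul, hg, hk, map_mul]⟩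
    | inv x _ hx =>
      obtain ⟨g, hg⟩ := hx
      refine ⟨g⁻¹, ?_⟩
      have h1 : rep e x * rep e x⁻¹ = 1 := by rw [← map_mul]; simp
      have h2 : Φ ((g⁻¹ : Matrix.SpecialLinearGroup (Fin 2) K) : Matrix (Fin 2) (Fin 2) K) *
          rep e x = 1 := by
        rw [← hg, ← map_mul, ← Matrix.SpecialLinearGroup.coe_mul]
        simp
      calc Φ ((g⁻¹ : Matrix.SpecialLinearGroup (Fin 2) K) : Matrix (Fin 2) (Fin 2) K)
          = Φ ((g⁻¹ : Matrix.SpecialLinearGroup (Fin 2) K) : Matrix (Fin 2) (Fin 2) K) *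
            (rep e x * rep e x⁻¹) := by rw [h1, mul_one]
        _ = rep e x⁻¹ := by rw [← mul_assoc, h2, one_mul]
  choose j₀ hj₀ using hex
  let j : SL25 →* Matrix.SpecialLinearGroup (Fin 2) K :=
    { toFun := j₀
      map_one' := by
        apply Subtype.ext
        apply hΦ
        rw [hj₀, map_one]
        simp
      map_mul' := by
        intro x y
        apply Subtype.ext
        apply hΦ
        rw [Matrix.SpecialLinearGroup.coe_mul, map_mul, hj₀, hj₀, hj₀, map_mul] }
  have hj : ∀ x, Φ (j x : Matrix (Fin 2) (Fin 2) K) = rep e x := hj₀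
  let mV : Module (Matrix (Fin 2) (Fin 2) K) V := Module.compHom V Φ
  refine ⟨K, fK, mV, j, ?_⟩
  have hact : ∀ x v, e x v = (j x : Matrix (Fin 2) (Fin 2) K) • v := by
    intro x v
    change rep e x v = Φ (j x : Matrix (Fin 2) (Fin 2) K) v
    rw [hj]
  refine
    { p7 := hp7
      char := hch
      fin := hfin
      card := hcard
      nontriv := hV
      jinj := ?_
      act := hact
      mem := hL
      norm := hn
      span := ?_ }
  · intro x y hxy
    apply he
    ext v
    rw [hact, hact, hxy]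
  · -- the additive closure of the image
    let j' : SL25 →* Matrix (Fin 2) (Fin 2) K :=
      { toFun := fun x => (j x : Matrix (Fin 2) (Fin 2) K)
        map_one' := by simp
        map_mul' := fun x y => by simp }
    let R : Subring (Matrix (Fin 2) (Fin 2) K) := Subring.closure (Set.range j')
    have hR : R = ⊤ := by
      have hmem : ∀ x, (j x : Matrix (Fin 2) (Fin 2) K) ∈ R := fun x => Subring.subset_closure ⟨x, rfl⟩
      have hjS : (j S : Matrix (Fin 2) (Fin 2) K) = a0 := by
        apply hΦ; rw [hj, hΦa, ha]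
      have hjB : (j (-(S * T)) : Matrix (Fin 2) (Fin 2) K) = b0 γ r s := by
        apply hΦ; rw [hj, hΦb, hb]
      have h1 : (a0 : Matrix (Fin 2) (Fin 2) K) ∈ R := by rw [← hjS]; exact hmem _
      have h2 : b0 γ r s ∈ R := by rw [← hjB]; exact hmem _
      have h4 : γ • (1 : Matrix (Fin 2) (Fin 2) K) ∈ R := by
        have h5 : γ • (1 : Matrix (Fin 2) (Fin 2) K) =
            a0 * b0 γ r s + b0 γ r s * a0 + a0 := by rw [b0_a0]; abel
        rw [h5]
        exact add_mem (add_mem (mul_mem h1 h2) (mul_mem h2 h1)) h1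
      have h6 : ∀ k : K, k • (1 : Matrix (Fin 2) (Fin 2) K) ∈ R := by
        intro k
        have h7 : R.comap (algebraMap K (Matrix (Fin 2) (Fin 2) K)) = ⊤ := by
          apply hgen
          rw [Subring.mem_comap, Algebra.algebraMap_eq_smul_one]
          exact h4
        have h8 : k ∈ R.comap (algebraMap K (Matrix (Fin 2) (Fin 2) K)) := by rw [h7]; trivial
        rw [Subring.mem_comap, Algebra.algebraMap_eq_smul_one] at h8
        exact h8
      have h9 : ∀ (k : K) (M : Matrix (Fin 2) (Fin 2) K), M ∈ R → k • M ∈ R := by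
        intro k M hM
        have : k • M = (k • 1) * M := by simp
        rw [this]
        exact mul_mem (h6 k) hM
      rw [eq_top_iff]
      intro M _
      obtain ⟨t, rfl⟩ := (ev_bij hrs hγ3).2 M
      rw [ev_apply]
      exact add_mem (add_mem (add_mem (h9 _ _ (one_mem _)) (h9 _ _ h1)) (h9 _ _ h2))
        (h9 _ _ (mul_mem h1 h2))
    rw [eq_top_iff]
    intro M _
    have h1 : M ∈ R := by rw [hR]; trivial
    rw [Subring.mem_closure_iff] at h1
    have h2 : ((Submonoid.closure (Set.range j') : Submonoid (Matrix (Fin 2) (Fin 2) K)) :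
        Set (Matrix (Fin 2) (Fin 2) K)) = Set.range j' := by
      have h3 : (Set.range j' : Set (Matrix (Fin 2) (Fin 2) K)) = (MonoidHom.mrange j' : Set _) := by
        simp
      rw [h3, Submonoid.closure_eq]
    rw [h2] at h1
    exact h1

end main

end Cfsg.Agent.H432.HT
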